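import Cfsg.Agent.H686.EX.Kill
import Cfsg.Agent.H548.RowPSU
import Cfsg.Agent.S2121
import Cfsg.Agent.S1059

/-!
# S5745: the rows `T = L_4(3), U_4(3), G_2(3), U_3(9)` of `E_6(2)` (helper686)

`big_of` : the rows in terms of class lower bounds `c`.
-/

set_option autoImplicit false

namespace Cfsg.Agent.H686.EX

open Subgroup Cfsg Cfsg.Agent.H284 Cfsg.Agent.H209.EPX Cfsg.Agent.H742.EX
open Cfsg.Agent.Nodes.RGDChev (HasRGD)

section row

variable {G : Type*} [Group G] [Finite G] {H N : Subgroup G} {T : Type} [Group T] {e : N ≃* (Fin 1 → T)}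

theorem cG_le_card (x : G) : cG x ≤ Nat.card G := by
  rw [cG]
  exact Nat.card_le_card_of_injective (fun y : {y : G // IsConj x y} => y.1) Subtype.val_injective

omit [Finite G] in
theorem card_dvd (h : EPS H N e) [Finite T] : Nat.card H ∣ Nat.card T * Nat.card (Out T) := by
  let e' : N ≃* T := e.trans (MulEquiv.funUnique (Fin 1) T)
  have hN : NIn N H := h.toNIn
  have h2 := relIndex_dvd_out hN h.cent e'
  have h2' : Nat.card N * N.relIndex H = Nat.card H := by
    have h3 := (N.subgroupOf H).card_mul_index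
    rwa [Nat.card_congr (Subgroup.subgroupOfEquivOfLe hN.le).toEquiv] at h3
  rw [← h2', Nat.card_congr e'.toEquiv]
  exact Nat.mul_dvd_mul_left _ h2

/-- the elements of order `r` are in the socle -/
theorem card_el_le_T [Finite T] (h : EPS H N e) {r : ℕ} (hr : r.Prime) (hO : ¬ r ∣ Nat.card (Out T)) :
    (el H r).card ≤ Nat.card T := by
  classical
  let e' : N ≃* T := e.trans (MulEquiv.funUnique (Fin 1) T)
  have hN : NIn N H := h.toNIn
  have h1 := relIndex_dvd_out hN h.cent e'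
  rw [← Nat.card_congr e'.toEquiv, ← Fintype.card_coe, ← Nat.card_eq_fintype_card]
  refine Nat.card_le_card_of_injective (fun x : el H r => (⟨x.1, mem_of_pow hN hr (fun hd => hO (hd.trans h1))
    (mem_el.1 x.2).1 (by
    have h := pow_orderOf_eq_one x.1
    rwa [(mem_el.1 x.2).2] at h)⟩ : N)) fun x y hxy => ?_
  exact Subtype.ext (congrArg (fun z : N => (z : G)) hxy)

/-- **The row when `|Out T|` is prime to all primes of `π`**: elements of order `r ∈ π` are in the socle; at most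
`|T|_s ^ 2` of them for `r = s`, at most `|T|` otherwise. -/
theorem row_of' [Finite T] (h : EPS H N e) {s ℓ : ℕ} [hℓ : Fact ℓ.Prime] (hs : s.Prime)
    (hM : ∀ g ∉ H, ¬ IsPGroup ℓ (H ⊓ cj g H : Subgroup G)) (hT : HasRGD s T)
    (π : Finset ℕ) (hπ : ∀ r : ℕ, r.Prime → r ≠ ℓ → r ∣ Nat.card T * Nat.card (Out T) → r ∈ π)
    (hπp : ∀ r ∈ π, r.Prime) (hO : ∀ r ∈ π, ¬ r ∣ Nat.card (Out T))
    (Ns B : ℕ) (hNs : s ^ (2 * (Nat.card T).factorization s) ≤ Ns) (hB : Nat.card T ≤ B)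
    (c : ℕ → ℕ) (hc0 : ∀ r ∈ π, 0 < c r) (hc : ∀ r ∈ π, ∀ x : G, orderOf x = r → c r ≤ cG x)
    (hsπ : s ∈ π) (hsT : s ∣ Nat.card T) (h3 : 3 * (B * Nat.card (Out T)) ≤ c s)
    (hS : ∑ r ∈ π, ((((if r = s then Ns else B : ℕ) : ℚ)) ^ 2 / (((r : ℚ) - 1) * c r)) ≤ 1 / 2) : False := by
  let e' : N ≃* T := e.trans (MulEquiv.funUnique (Fin 1) T)
  have hN : NIn N H := h.toNIn
  have := Fact.mk hs
  have h2 := relIndex_dvd_out hN h.cent e'
  have hcard := card_dvd h
  have hpos : 0 < Nat.card T * Nat.card (Out T) := Nat.mul_pos Nat.card_pos Nat.card_pos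
  have hi : 3 ≤ H.index := by
    obtain ⟨x, hx⟩ := exists_prime_orderOf_dvd_card' s hsT
    have hx' : orderOf ((e'.symm x : N) : G) = s := by
      rw [Subgroup.orderOf_coe, MulEquiv.orderOf_eq, hx]
    have h1 := (hc s hsπ _ hx').trans (cG_le_card _)
    have h4 : Nat.card H ≤ B * Nat.card (Out T) := (Nat.le_of_dvd hpos hcard).trans (Nat.mul_le_mul_right _ hB)
    have h5 : Nat.card H * H.index = Nat.card G := H.card_mul_index
    by_contra hcon
    push Not at hcon
    have hB0 : 0 < B * Nat.card (Out T) := lt_of_lt_of_le hpos (Nat.mul_le_mul_right _ hB)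
    have h6 : Nat.card H * H.index ≤ (B * Nat.card (Out T)) * 2 := Nat.mul_le_mul h4 (by omega)
    omega
  refine dead_of_pi hi π hπp ?_ (fun r => if r = s then Ns else B) c ?_ hc0 (fun r hr x _ hx => hc r hr x hx) hS
  · intro g hg
    obtain ⟨r, hr, hrl, hrd⟩ := exists_odd_prime (hM g hg)
    exact ⟨r, hπ r hr hrl ((hrd.trans (Subgroup.card_dvd_of_le inf_le_left)).trans hcard), hrd⟩
  · intro r hr
    by_cases hrs : r = s
    · simp only [if_pos hrs]
      rw [hrs]
      exact (card_el_le hN e' hs (fun hd => hO s hsπ (hd.trans h2)) hT).trans hNs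
    · simp only [if_neg hrs]
      exact (card_el_le_T h (hπp r hr) (hO r hr)).trans hB

end row

section data

theorem charP_three {F : Type*} [Field F] [Fintype F] {n : ℕ} (hF : Fintype.card F = 3 ^ n) : CharP F 3 := by
  obtain ⟨p, hp⟩ := CharP.exists F
  obtain ⟨k, hpp, hk⟩ := FiniteField.card F p
  rw [hF] at hk
  have h1 : p ∣ 3 ^ n := by
    rw [hk]
    exact dvd_pow_self p k.pos.ne'
  have h2 : p = 3 := (Nat.prime_dvd_prime_iff_eq hpp Nat.prime_three).1 (hpp.dvd_of_dvd_pow h1)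
  rwa [h2] at hp

variable {F : Type} [Field F] [Fintype F]

theorem out_psl43 (hF : Fintype.card F = 3) :
    Nat.card (Out (Matrix.ProjectiveSpecialLinearGroup (Fin 4) F)) = 4 := by
  have : Fact (Nat.Prime 3) := ⟨Nat.prime_three⟩
  rw [Cfsg.Agent.H548.RowPSL.card_out_psl (p := 3) (f := 1) le_rfl (by rw [hF, pow_one]) (by norm_num)]
  decide

theorem card_psl43 (hF : Fintype.card F = 3) :
    Nat.card (Matrix.ProjectiveSpecialLinearGroup (Fin 4) F) = 6065280 := by
  have h1 := Cfsg.Agent.S0243.result hF 4 (by norm_num)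
  have h2 : Nat.gcd 4 (3 - 1) = 2 := by decide
  have h3 : ∏ i : Fin 4, (3 ^ 4 - 3 ^ (i : ℕ)) = 24261120 := by decide
  rw [h2, h3] at h1
  omega

theorem rgd_psl43 (hF : Fintype.card F = 3) : HasRGD 3 (Matrix.ProjectiveSpecialLinearGroup (Fin 4) F) :=
  Cfsg.Agent.Nodes.RGDClass.hasRGD_of_PSL
    ⟨F, inferInstance, inferInstance, charP_three (n := 1) (by rw [hF, pow_one]), 4, by norm_num, by norm_num,
      ⟨MulEquiv.refl _⟩⟩

theorem isPSU {q f n : ℕ} (hq : q = 3 ^ f) (hn : 3 ≤ n) (hF : Fintype.card F = q ^ 2) (h32 : ¬ (n = 3 ∧ q = 2)) :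
    IsPSUChar 3 (PSU n F q) := ⟨F, inferInstance, inferInstance,
    charP_three (n := f * 2) (by rw [hF, hq, ← pow_mul]), n, q, hF, hn, h32, ⟨MulEquiv.refl _⟩⟩

theorem out_psu {q f n : ℕ} (hq : q = 3 ^ f) (hf : 1 ≤ f) (hn : 3 ≤ n) (hF : Fintype.card F = q ^ 2)
    (h32 : ¬ (n = 3 ∧ q = 2)) (hs : IsSimpleGroup (PSU n F q)) (hna : ¬ IsMulCommutative (PSU n F q)) :
    Nat.card (Out (PSU n F q)) = Nat.gcd n (q + 1) * (2 * f) := by
  have : Fact (Nat.Prime 3) := ⟨Nat.prime_three⟩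
  exact Cfsg.Agent.H548.LieNum.card_out_of_mulAut hs hna (Cfsg.Agent.S0815.result 3 f hf hq hF n hn h32)

end data

section rows

theorem fact_of {n k m : ℕ} (hn : n = 3 ^ k * m) (hm : ¬ 3 ∣ m) : n.factorization 3 = k := by
  rw [hn, Nat.factorization_mul (by positivity) (by rintro rfl; exact hm (dvd_zero 3)), Finsupp.add_apply,
    Nat.factorization_pow, Finsupp.smul_apply, Nat.Prime.factorization_self Nat.prime_three,
    Nat.factorization_eq_zero_of_not_dvd hm]
  simp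

theorem cases_of {r a b c d u v : ℕ} (hr : r.Prime) (h2 : r ≠ 2) (hu : u.Prime) (hv : v.Prime)
    (hd : r ∣ 2 ^ a * 3 ^ b * u ^ c * v ^ d) : r ∈ ({3, u, v} : Finset ℕ) := by
  simp only [Finset.mem_insert, Finset.mem_singleton]
  rcases (Nat.Prime.dvd_mul hr).1 hd with hd | hd
  · rcases (Nat.Prime.dvd_mul hr).1 hd with hd | hd
    · rcases (Nat.Prime.dvd_mul hr).1 hd with hd | hd
      · exact (h2 ((Nat.prime_dvd_prime_iff_eq hr Nat.prime_two).1 (hr.dvd_of_dvd_pow hd))).elim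
      · exact Or.inl ((Nat.prime_dvd_prime_iff_eq hr Nat.prime_three).1 (hr.dvd_of_dvd_pow hd))
    · exact Or.inr (Or.inl ((Nat.prime_dvd_prime_iff_eq hr hu).1 (hr.dvd_of_dvd_pow hd)))
  · exact Or.inr (Or.inr ((Nat.prime_dvd_prime_iff_eq hr hv).1 (hr.dvd_of_dvd_pow hd)))

variable {G : Type*} [Group G] [Finite G] {H N : Subgroup G} {T : Type} [Group T] {e : N ≃* (Fin 1 → T)}
  (h : EPS H N e) (hM : ∀ g ∉ H, ¬ IsPGroup 2 (H ⊓ cj g H : Subgroup G))
  {F : Type} [Field F] [Fintype F]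

include h hM

/-- the common part of the four rows: `|T| = t`, `|Out T| = o`, both explicit; `3`, `u`, `v` the odd primes of `|T|` -/
theorem common {t o m u v a c d cu cv : ℕ} (hRGD : HasRGD 3 T) [Finite T] (hcT : Nat.card T = t) (hcO : Nat.card (Out T) = o)
    (ht : t = 3 ^ 6 * m) (hm : ¬ 3 ∣ m) (hto : t * o = 2 ^ a * 3 ^ 6 * u ^ c * v ^ d) (hu : u.Prime) (hv : v.Prime)
    (hu3 : u ≠ 3) (hv3 : v ≠ 3) (huv : u ≠ v) (ho3 : ¬ 3 ∣ o) (hou : ¬ u ∣ o) (hov : ¬ v ∣ o)
    (c3 : ∀ x : G, orderOf x = 3 → 2 ^ 39 ≤ cG x) (hcu : ∀ x : G, orderOf x = u → 2 ^ cu ≤ cG x)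
    (hcv : ∀ x : G, orderOf x = v → 2 ^ cv ≤ cG x) (hB : 3 * (t * o) ≤ 2 ^ 39)
    (hS : ((3 : ℚ) ^ 12) ^ 2 / ((3 - 1) * 2 ^ 39) + ((t : ℚ) ^ 2 / ((u - 1) * 2 ^ cu) + (t : ℚ) ^ 2 / ((v - 1) * 2 ^ cv)) ≤
      1 / 2) : False := by
  have : Fact (Nat.Prime 2) := ⟨Nat.prime_two⟩
  have hfac : (Nat.card T).factorization 3 = 6 := fact_of (hcT.trans ht) hm
  have hmem : ∀ r ∈ ({3, u, v} : Finset ℕ), r = 3 ∨ r = u ∨ r = v := by
    intro r hr
    simpa using hr
  refine row_of' h (s := 3) (ℓ := 2) Nat.prime_three hM hRGD {3, u, v} ?_ ?_ ?_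
    (3 ^ 12) t (by rw [hfac]) hcT.le (fun r => if r = 3 then 2 ^ 39 else if r = u then 2 ^ cu else 2 ^ cv) ?_ ?_ (by simp)
    (by rw [hcT, ht]; exact ⟨3 ^ 5 * m, by ring⟩) (by rw [hcO]; simpa using hB) ?_
  · intro r hr h2 hd
    rw [hcT, hcO, hto] at hd
    exact cases_of hr h2 hu hv hd
  · intro r hr
    rcases hmem r hr with rfl | rfl | rfl
    · exact Nat.prime_three
    · exact hu
    · exact hv
  · intro r hr
    rw [hcO]
    rcases hmem r hr with rfl | rfl | rfl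
    · exact ho3
    · exact hou
    · exact hov
  · intro r hr
    split_ifs <;> positivity
  · intro r hr
    rcases hmem r hr with rfl | rfl | rfl
    · simpa using c3
    · simpa [hu3] using hcu
    · simpa [hv3, Ne.symm huv] using hcv
  · rw [Finset.sum_insert (by simp [hu3.symm, hv3.symm]), Finset.sum_insert (by simp [huv]), Finset.sum_singleton]
    simp only [if_pos, if_neg hu3, if_neg hv3, if_neg (Ne.symm huv)]
    push_cast
    exact hS

/-- `L_4(3)` -/
theorem psl43 (hF : Fintype.card F = 3) (eT : T ≃* Matrix.ProjectiveSpecialLinearGroup (Fin 4) F)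
    (c3 : ∀ x : G, orderOf x = 3 → 2 ^ 39 ≤ cG x) (c5 : ∀ x : G, orderOf x = 5 → 2 ^ 46 ≤ cG x)
    (c13 : ∀ x : G, orderOf x = 13 → 2 ^ 46 ≤ cG x) : False := by
  have hTf : Finite T := Finite.of_equiv _ eT.symm.toEquiv
  exact common h hM (t := 6065280) (o := 4) (m := 8320) (u := 5) (v := 13) (a := 9) (c := 1) (d := 1)
    (HasRGD.of_equiv eT.symm (rgd_psl43 hF)) (by rw [Nat.card_congr eT.toEquiv, card_psl43 hF])
    (by rw [Cfsg.Agent.H548.Crit.card_out_congr eT, out_psl43 hF]) (by norm_num) (by norm_num) (by norm_num) (by norm_num)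
    (by norm_num) (by norm_num) (by norm_num) (by norm_num) (by norm_num) (by norm_num) (by norm_num) c3 c5 c13
    (by norm_num) (by norm_num)

/-- `U_4(3)` -/
theorem psu43 (hF : Fintype.card F = 9) (eT : T ≃* PSU 4 F 3)
    (c3 : ∀ x : G, orderOf x = 3 → 2 ^ 39 ≤ cG x) (c5 : ∀ x : G, orderOf x = 5 → 2 ^ 46 ≤ cG x)
    (c7 : ∀ x : G, orderOf x = 7 → 2 ^ 46 ≤ cG x) : False := by
  have hTf : Finite T := Finite.of_equiv _ eT.symm.toEquiv
  have hsT := h.simple
  have hs : IsSimpleGroup (PSU 4 F 3) := eT.symm.isSimpleGroup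
  have hna : ¬ IsMulCommutative (PSU 4 F 3) := by
    intro hc
    obtain ⟨a, b, hab⟩ := h.nab
    apply hab
    apply eT.injective
    rw [map_mul, map_mul]
    exact hc.is_comm.comm _ _
  have hF' : Fintype.card F = 3 ^ 2 := by rw [hF]; norm_num
  have hc := Cfsg.Agent.S0280.result hF' 4 (by norm_num)
  have hcard : Nat.card (PSU 4 F 3) = 3265920 := by
    have h3 : Nat.gcd 4 (3 + 1) = 4 := by decide
    have h4 : 3 ^ (4 * (4 - 1) / 2) * ∏ i ∈ Finset.range 4, (if Even i then 3 ^ (i + 1) + 1 else 3 ^ (i + 1) - 1) =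
      52254720 := by decide
    rw [h3, h4] at hc
    omega
  exact common h hM (t := 3265920) (o := 8) (m := 4480) (u := 5) (v := 7) (a := 10) (c := 1) (d := 1)
    (HasRGD.of_equiv eT.symm (Cfsg.Agent.Nodes.RGDClass.hasRGD_of_PSU (isPSU (f := 1) (by norm_num) (by norm_num) hF'
      (by norm_num)))) (by rw [Nat.card_congr eT.toEquiv, hcard])
    (by rw [Cfsg.Agent.H548.Crit.card_out_congr eT, out_psu (f := 1) (by norm_num) le_rfl (by norm_num) hF' (by norm_num) hs
      hna]; decide) (by norm_num) (by norm_num) (by norm_num) (by norm_num)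
    (by norm_num) (by norm_num) (by norm_num) (by norm_num) (by norm_num) (by norm_num) (by norm_num) c3 c5 c7
    (by norm_num) (by norm_num)

/-- `U_3(9)` -/
theorem psu39 (hF : Fintype.card F = 81) (eT : T ≃* PSU 3 F 9)
    (c3 : ∀ x : G, orderOf x = 3 → 2 ^ 39 ≤ cG x) (c5 : ∀ x : G, orderOf x = 5 → 2 ^ 55 ≤ cG x)
    (c73 : ∀ x : G, orderOf x = 73 → 2 ^ 55 ≤ cG x) : False := by
  have hTf : Finite T := Finite.of_equiv _ eT.symm.toEquiv
  have hsT := h.simple
  have hs : IsSimpleGroup (PSU 3 F 9) := eT.symm.isSimpleGroup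
  have hna : ¬ IsMulCommutative (PSU 3 F 9) := by
    intro hc
    obtain ⟨a, b, hab⟩ := h.nab
    apply hab
    apply eT.injective
    rw [map_mul, map_mul]
    exact hc.is_comm.comm _ _
  have hF' : Fintype.card F = 9 ^ 2 := by rw [hF]; norm_num
  have hc := Cfsg.Agent.S0280.result hF' 3 (by norm_num)
  have hcard : Nat.card (PSU 3 F 9) = 42573600 := by
    have h3 : Nat.gcd 3 (9 + 1) = 1 := by decide
    have h4 : 9 ^ (3 * (3 - 1) / 2) * ∏ i ∈ Finset.range 3, (if Even i then 9 ^ (i + 1) + 1 else 9 ^ (i + 1) - 1) =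
      425736000 := by decide
    rw [h3, h4] at hc
    omega
  exact common h hM (t := 42573600) (o := 4) (m := 58400) (u := 5) (v := 73) (a := 7) (c := 2) (d := 1)
    (HasRGD.of_equiv eT.symm (Cfsg.Agent.Nodes.RGDClass.hasRGD_of_PSU (isPSU (f := 2) (by norm_num) (by norm_num) hF'
      (by norm_num)))) (by rw [Nat.card_congr eT.toEquiv, hcard])
    (by rw [Cfsg.Agent.H548.Crit.card_out_congr eT, out_psu (f := 2) (by norm_num) (by norm_num) (by norm_num) hF'
      (by norm_num) hs hna]; decide) (by norm_num) (by norm_num) (by norm_num) (by norm_num)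
    (by norm_num) (by norm_num) (by norm_num) (by norm_num) (by norm_num) (by norm_num) (by norm_num) c3 c5 c73
    (by norm_num) (by norm_num)

/-- `G_2(3)` -/
theorem g23 (hF : Fintype.card F = 3) (eT : T ≃* ↥(Lie.chevG2.group F))
    (c3 : ∀ x : G, orderOf x = 3 → 2 ^ 39 ≤ cG x) (c7 : ∀ x : G, orderOf x = 7 → 2 ^ 46 ≤ cG x)
    (c13 : ∀ x : G, orderOf x = 13 → 2 ^ 46 ≤ cG x) : False := by
  have hTf : Finite T := Finite.of_equiv _ eT.symm.toEquiv
  have hch : CharP F 3 := charP_three (n := 1) (by rw [hF, pow_one])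
  have : Fact (Nat.Prime 3) := ⟨Nat.prime_three⟩
  have hrgd : HasRGD 3 T := Cfsg.Agent.Nodes.RGDChev.hasRGD_of_exceptional
    ⟨F, inferInstance, inferInstance, hch, Or.inl ⟨by rw [hF], ⟨eT⟩⟩⟩
  have hcard : Nat.card ↥(Lie.chevG2.group F) = 4245696 := by
    rw [Cfsg.Agent.S1059.result hF]; norm_num
  have hout : Nat.card (Out ↥(Lie.chevG2.group F)) = 2 := by
    rw [Cfsg.Agent.S2121.result 3 1 (by rw [hF, pow_one]) (by norm_num)]
    simp
  exact common h hM (t := 4245696) (o := 2) (m := 5824) (u := 7) (v := 13) (a := 7) (c := 1) (d := 1)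
    hrgd (by rw [Nat.card_congr eT.toEquiv, hcard])
    (by rw [Cfsg.Agent.H548.Crit.card_out_congr eT, hout]) (by norm_num) (by norm_num) (by norm_num) (by norm_num)
    (by norm_num) (by norm_num) (by norm_num) (by norm_num) (by norm_num) (by norm_num) (by norm_num) c3 c7 c13
    (by norm_num) (by norm_num)

end rows

end Cfsg.Agent.H686.EX
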