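import Cfsg.Agent.H742.EX.EPi
import Cfsg.Agent.H631.Kaw.Main
import Cfsg.Agent.H209.EPX.Defs
import Cfsg.Agent.Nodes.RGDLie
import Cfsg.Prelude.Def_KGroupFacts

/-!
# S5745: tools for the cross rows (helper686)

* `dead_of_pi` : the inequality `E_pi` with sum `≤ 1/2` is a contradiction;
* `relIndex_dvd_out` : `|H : N|` divides `|Out T|`;
* `card_el_le` : if `T` is of Lie type in characteristic `s` and `s ∤ |Out T|`, then `H` has at most `|T|_s ^ 2` elements
  of order `s` (Steinberg);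
* `row_of` : the generic row with explicit numbers.
-/

set_option autoImplicit false

namespace Cfsg.Agent.H686.EX

open Subgroup Cfsg.Agent.H284 Cfsg.Agent.H209.EPX Cfsg.Agent.H742.EX
open Cfsg.Agent.Nodes.RGDChev (HasRGD)

section basic

variable {G : Type*} [Group G] {H N : Subgroup G}

theorem dead_of_pi [Finite G] (hn : 3 ≤ H.index) (π : Finset ℕ) (hπ : ∀ r ∈ π, r.Prime)
    (hM : ∀ g ∉ H, ∃ r ∈ π, r ∣ Nat.card (H ⊓ cj g H : Subgroup G)) (N c : ℕ → ℕ)
    (hN : ∀ r ∈ π, (el H r).card ≤ N r) (hc0 : ∀ r ∈ π, 0 < c r)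
    (hc : ∀ r ∈ π, ∀ x ∈ H, orderOf x = r → c r ≤ cG x)
    (hS : ∑ r ∈ π, ((N r : ℚ) ^ 2 / (((r : ℚ) - 1) * c r)) ≤ 1 / 2) : False := by
  have h1 := e_pi_crude H π hπ hM N c hN hc0 hc
  have h2 : (3 : ℚ) ≤ H.index := by exact_mod_cast hn
  have h3 : (H.index : ℚ) * ∑ r ∈ π, ((N r : ℚ) ^ 2 / (((r : ℚ) - 1) * c r)) ≤ H.index * (1 / 2) :=
    mul_le_mul_of_nonneg_left hS (by linarith)
  linarith

theorem mem_of_pow (hN : NIn N H) {s : ℕ} (hs : s.Prime) (hco : ¬ s ∣ N.relIndex H) {x : G} (hx : x ∈ H)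
    (hxs : x ^ s = 1) : x ∈ N := by
  have hn : (N.subgroupOf H).Normal := ⟨fun n hn g => hN.nrm g g.2 n hn⟩
  have h1 : (⟨x, hx⟩ : H) ^ (N.subgroupOf H).index ∈ N.subgroupOf H := Subgroup.pow_index_mem _ _
  have h2 : x ^ N.relIndex H ∈ N := h1
  have h3 : Nat.Coprime s (N.relIndex H) := (Nat.Prime.coprime_iff_not_dvd hs).2 hco
  obtain ⟨u, -, hu⟩ := Nat.exists_mul_mod_eq_one_of_coprime h3.symm hs.one_lt
  have h4 : x ^ (N.relIndex H * u) = x := by
    rw [← Nat.div_add_mod (N.relIndex H * u) s, hu, pow_add, pow_mul, hxs, one_pow, one_mul, pow_one]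
  rw [← h4, pow_mul]
  exact N.pow_mem h2 u

open Cfsg in
/-- `|H : N|` divides `|Out T|` -/
theorem relIndex_dvd_out {T : Type*} [Group T] (hN : NIn N H) (hc : Subgroup.centralizer (N : Set G) = ⊥) (e : N ≃* T) :
    N.relIndex H ∣ Nat.card (Out T) := by
  have hn : (N.subgroupOf H).Normal := ⟨fun n hn g => hN.nrm g g.2 n hn⟩
  let E : N.subgroupOf H ≃* T := (Subgroup.subgroupOfEquivOfLe hN.le).trans e
  let f : H →* MulAut T := (MulAut.congr E).toMonoidHom.comp (MulAut.conjNormal (H := N.subgroupOf H))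
  have hf : ∀ (g : H) (t : T), f g t = E (MulAut.conjNormal g (E.symm t)) := fun _ _ => rfl
  have h1 : (Inn T).comap f = N.subgroupOf H := by
    ext g
    rw [Subgroup.mem_comap]
    constructor
    · rintro ⟨t, ht⟩
      have h2 : ∀ x ∈ N, ((E.symm t : N.subgroupOf H) : H) * x * ((((E.symm t : N.subgroupOf H) : H) : G))⁻¹ =
          (g : G) * x * (g : G)⁻¹ := by
        intro x hx
        have h3 := DFunLike.congr_fun ht (E ⟨⟨x, hN.le hx⟩, hx⟩)
        rw [hf, E.symm_apply_apply] at h3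
        have h4 : t * E ⟨⟨x, hN.le hx⟩, hx⟩ * t⁻¹ = E (MulAut.conjNormal g ⟨⟨x, hN.le hx⟩, hx⟩) := h3
        have h5 : E (E.symm t * ⟨⟨x, hN.le hx⟩, hx⟩ * (E.symm t)⁻¹) = E (MulAut.conjNormal g ⟨⟨x, hN.le hx⟩, hx⟩) := by
          rw [← h4, map_mul, map_mul, map_inv, E.apply_symm_apply]
        have h6 := congrArg (fun y : N.subgroupOf H => ((y : H) : G)) (E.injective h5)
        simpa [MulAut.conjNormal_apply] using h6
      have h7 : ((((E.symm t : N.subgroupOf H) : H) : G))⁻¹ * g ∈ Subgroup.centralizer (N : Set G) := by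
        rw [Subgroup.mem_centralizer_iff]
        intro x hx
        have h8 := h2 x hx
        rw [mul_inv_eq_iff_eq_mul] at h8
        rw [eq_comm, mul_assoc, inv_mul_eq_iff_eq_mul, ← mul_assoc, h8]
        group
      rw [hc, Subgroup.mem_bot, inv_mul_eq_one] at h7
      rw [Subgroup.mem_subgroupOf, ← h7]
      exact (E.symm t).2
    · intro hg
      refine ⟨E ⟨g, hg⟩, ?_⟩
      apply MulEquiv.ext
      intro t
      rw [hf]
      show E ⟨g, hg⟩ * t * (E ⟨g, hg⟩)⁻¹ = _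
      have h2 : MulAut.conjNormal g (E.symm t) = ⟨g, hg⟩ * E.symm t * ⟨g, hg⟩⁻¹ := by
        apply Subtype.ext
        rw [MulAut.conjNormal_apply]
        rfl
      rw [h2, map_mul, map_mul, map_inv, E.apply_symm_apply]
  have h2 : (N.subgroupOf H).index ∣ (Inn T).index := by
    rw [← h1, Subgroup.index_comap]
    exact Subgroup.relIndex_dvd_index_of_normal _ _
  exact h2

/-- the number of elements of order `s` of `H` (Steinberg) -/
theorem card_el_le [Finite G] {T : Type*} [Group T] [Finite T] (hN : NIn N H) (e : N ≃* T) {s : ℕ} (hs : s.Prime)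
    (hco : ¬ s ∣ N.relIndex H) (hT : HasRGD s T) : (el H s).card ≤ s ^ (2 * (Nat.card T).factorization s) := by
  classical
  have := Fact.mk hs
  rw [← Cfsg.Agent.H631.Kaw.card_pSet hT, ← Nat.card_coe_set_eq, ← Fintype.card_coe, ← Nat.card_eq_fintype_card]
  refine Nat.card_le_card_of_injective (fun x : el H s => ⟨e ⟨x.1, mem_of_pow hN hs hco (mem_el.1 x.2).1 (by
    have h := pow_orderOf_eq_one x.1
    rwa [(mem_el.1 x.2).2] at h)⟩, 1, ?_⟩) ?_
  · rw [pow_one, MulEquiv.orderOf_eq, ← Subgroup.orderOf_coe]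
    exact (mem_el.1 x.2).2
  · intro x y hxy
    have h1 := congrArg Subtype.val hxy
    have h2 := congrArg Subtype.val (e.injective h1)
    exact Subtype.ext h2

theorem card_el_le_card [Finite G] {s : ℕ} : (el H s).card ≤ Nat.card H := by
  classical
  rw [← Fintype.card_coe, ← Nat.card_eq_fintype_card]
  refine Nat.card_le_card_of_injective (fun x : el H s => (⟨x.1, (mem_el.1 x.2).1⟩ : H)) fun x y hxy => ?_
  exact Subtype.ext (congrArg (fun z : H => (z : G)) hxy)

/-- not a `2`-group -/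
theorem exists_odd_prime {M : Subgroup G} [Finite G] {s : ℕ} [Fact s.Prime] (h : ¬ IsPGroup s M) :
    ∃ r, r.Prime ∧ r ≠ s ∧ r ∣ Nat.card M := by
  by_contra hcon
  push Not at hcon
  apply h
  rw [IsPGroup.iff_card]
  refine ⟨(Nat.card M).factorization s, ?_⟩
  apply Nat.eq_pow_of_factorization_eq_single Nat.card_pos.ne'
  ext r
  by_cases hr : r = s
  · subst hr
    simp
  · rw [Finsupp.single_eq_of_ne hr]
    by_cases hrp : r.Prime
    · exact Nat.factorization_eq_zero_of_not_dvd (hcon r hrp hr)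
    · exact Nat.factorization_eq_zero_of_not_prime _ hrp

end basic

section row

open Cfsg

variable {G : Type*} [Group G] [Finite G] {H N : Subgroup G} {T : Type} [Group T] {e : N ≃* (Fin 1 → T)}

/-- **The generic row**: `T` of Lie type in characteristic `s`, no two-point stabiliser is an `ℓ`-group, `π` the primes
of `|T| |Out T|` except `ℓ`; `Ns ≥ |T|_s ^ 2`, `B ≥ |T| |Out T|`. -/
theorem row_of [Finite T] (h : EPS H N e) {s ℓ : ℕ} [hℓ : Fact ℓ.Prime] (hs : s.Prime)
    (hM : ∀ g ∉ H, ¬ IsPGroup ℓ (H ⊓ cj g H : Subgroup G)) (hT : HasRGD s T) (hO : ¬ s ∣ Nat.card (Out T))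
    (π : Finset ℕ) (hπ : ∀ r : ℕ, r.Prime → r ≠ ℓ → r ∣ Nat.card T * Nat.card (Out T) → r ∈ π) (hπp : ∀ r ∈ π, r.Prime)
    (Ns B : ℕ) (hNs : s ^ (2 * (Nat.card T).factorization s) ≤ Ns) (hB : Nat.card T * Nat.card (Out T) ≤ B)
    (c : ℕ → ℕ) (hc0 : ∀ r ∈ π, 0 < c r) (hc : ∀ r ∈ π, ∀ x : G, orderOf x = r → c r ≤ cG x) (hi : 3 ≤ H.index)
    (hS : ∑ r ∈ π, ((((if r = s then Ns else B : ℕ) : ℚ)) ^ 2 / (((r : ℚ) - 1) * c r)) ≤ 1 / 2) : False := by
  have hN : NIn N H := h.toNIn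
  let e' : N ≃* T := e.trans (MulEquiv.funUnique (Fin 1) T)
  have h1 := relIndex_dvd_out hN h.cent e'
  have hcard : Nat.card H ∣ Nat.card T * Nat.card (Out T) := by
    have h2 : Nat.card N * N.relIndex H = Nat.card H := by
      have h3 := (N.subgroupOf H).card_mul_index
      rwa [Nat.card_congr (Subgroup.subgroupOfEquivOfLe hN.le).toEquiv] at h3
    rw [← h2, Nat.card_congr e'.toEquiv]
    exact Nat.mul_dvd_mul_left _ h1
  have hpos : 0 < Nat.card T * Nat.card (Out T) := Nat.mul_pos Nat.card_pos Nat.card_pos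
  refine dead_of_pi hi π hπp ?_ (fun r => if r = s then Ns else B) c ?_ hc0 (fun r hr x _ hx => hc r hr x hx) hS
  · intro g hg
    obtain ⟨r, hr, hrl, hrd⟩ := exists_odd_prime (hM g hg)
    exact ⟨r, hπ r hr hrl ((hrd.trans (Subgroup.card_dvd_of_le inf_le_left)).trans hcard), hrd⟩
  · intro r hr
    by_cases hrs : r = s
    · simp only [if_pos hrs]
      rw [hrs]
      exact (card_el_le hN e' hs (fun hd => hO (hd.trans h1)) hT).trans hNs
    · simp only [if_neg hrs]
      exact card_el_le_card.trans ((Nat.le_of_dvd hpos hcard).trans hB)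

end row

end Cfsg.Agent.H686.EX
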