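import Cfsg.Agent.H686.EX.Rows3

/-!
# S5745: the rows `T = L_4(3), U_4(3), G_2(3)`, relaxed class bounds (helper686)

* `dead_of_pi'` : `E_pi` with `|G : H| > I` and sum `≤ 1 - 1 / I`;
* `row3` : three odd primes `3, u, v`, arbitrary bounds for the numbers of elements and for the classes;
* `psl43'`, `psu43'`, `g23'` : as in `Rows3`, with `c_3 ≥ 3 * 2 ^ 36`;
* `psl43''`, `psu43''`, `g23''` : with the exact numbers of elements of order 3 as hypothesis and `c_3 ≥ 2 ^ 32`.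
-/

set_option autoImplicit false

namespace Cfsg.Agent.H686.EX

open Subgroup Cfsg Cfsg.Agent.H284 Cfsg.Agent.H209.EPX Cfsg.Agent.H742.EX
open Cfsg.Agent.Nodes.RGDChev (HasRGD)

theorem dead_of_pi' {G : Type*} [Group G] [Finite G] {H : Subgroup G} {I : ℕ} (hI : 0 < I) (hn : I < H.index) (π : Finset ℕ)
    (hπ : ∀ r ∈ π, r.Prime) (hM : ∀ g ∉ H, ∃ r ∈ π, r ∣ Nat.card (H ⊓ cj g H : Subgroup G)) (N c : ℕ → ℕ)
    (hN : ∀ r ∈ π, (el H r).card ≤ N r) (hc0 : ∀ r ∈ π, 0 < c r)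
    (hc : ∀ r ∈ π, ∀ x ∈ H, orderOf x = r → c r ≤ cG x)
    (hS : ∑ r ∈ π, ((N r : ℚ) ^ 2 / (((r : ℚ) - 1) * c r)) ≤ 1 - 1 / (I : ℚ)) : False := by
  have h1 := e_pi_crude H π hπ hM N c hN hc0 hc
  have h2 : (I : ℚ) < H.index := by exact_mod_cast hn
  have hI' : (0 : ℚ) < I := by exact_mod_cast hI
  have h0 : (0 : ℚ) < H.index := hI'.trans h2
  have h3 : (H.index : ℚ) * ∑ r ∈ π, ((N r : ℚ) ^ 2 / (((r : ℚ) - 1) * c r)) ≤ H.index * (1 - 1 / (I : ℚ)) :=
    mul_le_mul_of_nonneg_left hS h0.le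
  have h4 : (H.index : ℚ) * (1 / (I : ℚ)) ≤ 1 := by linarith
  rw [mul_one_div, div_le_one hI'] at h4
  linarith

section rows

variable {G : Type*} [Group G] [Finite G] {H N : Subgroup G} {T : Type} [Group T] {e : N ≃* (Fin 1 → T)}
  (h : EPS H N e) (hM : ∀ g ∉ H, ¬ IsPGroup 2 (H ⊓ cj g H : Subgroup G))
  {F : Type} [Field F] [Fintype F]

include h hM

theorem row3 {t o u v a b c d n3 nu nv k3 ku kv I : ℕ} [Finite T] (hcT : Nat.card T = t) (hcO : Nat.card (Out T) = o)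
    (hto : t * o = 2 ^ a * 3 ^ b * u ^ c * v ^ d) (hu : u.Prime) (hv : v.Prime)
    (hu3 : u ≠ 3) (hv3 : v ≠ 3) (huv : u ≠ v) (h3t : 3 ∣ t)
    (hn3 : (el H 3).card ≤ n3) (hnu : (el H u).card ≤ nu) (hnv : (el H v).card ≤ nv)
    (c3 : ∀ x : G, orderOf x = 3 → k3 ≤ cG x) (hcu : ∀ x : G, orderOf x = u → ku ≤ cG x)
    (hcv : ∀ x : G, orderOf x = v → kv ≤ cG x) (hk3 : 0 < k3) (hku : 0 < ku) (hkv : 0 < kv)
    (hI : 0 < I) (hB : (I + 1) * (t * o) ≤ k3)
    (hS : (n3 : ℚ) ^ 2 / ((3 - 1) * k3) + ((nu : ℚ) ^ 2 / ((u - 1) * ku) + (nv : ℚ) ^ 2 / ((v - 1) * kv)) ≤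
      1 - 1 / (I : ℚ)) : False := by
  have : Fact (Nat.Prime 2) := ⟨Nat.prime_two⟩
  have hmem : ∀ r ∈ ({3, u, v} : Finset ℕ), r = 3 ∨ r = u ∨ r = v := by
    intro r hr
    simpa using hr
  let e' : N ≃* T := e.trans (MulEquiv.funUnique (Fin 1) T)
  have hcard := card_dvd h
  rw [hcT, hcO] at hcard
  have ht0 : 0 < t := by rw [← hcT]; exact Nat.card_pos
  have ho0 : 0 < o := by rw [← hcO]; exact Nat.card_pos
  have hpos : 0 < t * o := Nat.mul_pos ht0 ho0
  have hi : I < H.index := by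
    have := Fact.mk Nat.prime_three
    obtain ⟨x, hx⟩ := exists_prime_orderOf_dvd_card' (G := T) 3 (by rw [hcT]; exact h3t)
    have hx' : orderOf ((e'.symm x : N) : G) = 3 := by
      rw [Subgroup.orderOf_coe, MulEquiv.orderOf_eq, hx]
    have h1 := (c3 _ hx').trans (cG_le_card _)
    have h5 : Nat.card H * H.index = Nat.card G := H.card_mul_index
    have h4 : Nat.card H ≤ t * o := Nat.le_of_dvd hpos hcard
    by_contra hcon
    push Not at hcon
    have h6 : Nat.card H * H.index ≤ (t * o) * I := Nat.mul_le_mul h4 hcon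
    have h7 : (I + 1) * (t * o) ≤ (t * o) * I := (hB.trans h1).trans (h5 ▸ h6)
    rw [add_mul, one_mul, mul_comm (t * o) I] at h7
    omega
  refine dead_of_pi' hI hi {3, u, v} ?_ ?_ (fun r => if r = 3 then n3 else if r = u then nu else nv)
    (fun r => if r = 3 then k3 else if r = u then ku else kv) ?_ ?_ ?_ ?_
  · intro r hr
    rcases hmem r hr with rfl | rfl | rfl
    · exact Nat.prime_three
    · exact hu
    · exact hv
  · intro g hg
    obtain ⟨r, hr, hrl, hrd⟩ := exists_odd_prime (hM g hg)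
    refine ⟨r, ?_, hrd⟩
    have hd := (hrd.trans (Subgroup.card_dvd_of_le inf_le_left)).trans hcard
    rw [hto] at hd
    exact cases_of hr hrl hu hv hd
  · intro r hr
    rcases hmem r hr with rfl | rfl | rfl
    · simpa using hn3
    · simpa [hu3] using hnu
    · simpa [hv3, Ne.symm huv] using hnv
  · intro r hr
    show 0 < (if r = 3 then k3 else if r = u then ku else kv)
    split_ifs
    · exact hk3
    · exact hku
    · exact hkv
  · intro r hr x _ hx
    rcases hmem r hr with rfl | rfl | rfl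
    · simpa using c3 x hx
    · simpa [hu3] using hcu x hx
    · simpa [hv3, Ne.symm huv] using hcv x hx
  · rw [Finset.sum_insert (by simp [hu3.symm, hv3.symm]), Finset.sum_insert (by simp [huv]), Finset.sum_singleton]
    simp only [if_pos, if_neg hu3, if_neg hv3, if_neg (Ne.symm huv)]
    push_cast
    exact hS

omit hM in
theorem el_three_le {m k : ℕ} [Finite T] (hRGD : HasRGD 3 T) (hO : ¬ 3 ∣ Nat.card (Out T)) (ht : Nat.card T = 3 ^ k * m)
    (hm : ¬ 3 ∣ m) : (el H 3).card ≤ 3 ^ (2 * k) := by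
  let e' : N ≃* T := e.trans (MulEquiv.funUnique (Fin 1) T)
  have hN : NIn N H := h.toNIn
  have h2 := relIndex_dvd_out hN h.cent e'
  have h1 := card_el_le hN e' Nat.prime_three (fun hd => hO (hd.trans h2)) hRGD
  rwa [fact_of ht hm] at h1

omit hM in
/-- the elements of order `r` of `H` are those of `T` -/
theorem el_le_T [Finite T] {r n : ℕ} (hr : r.Prime) (hO : ¬ r ∣ Nat.card (Out T))
    (hn : Nat.card {x : T // orderOf x = r} ≤ n) : (el H r).card ≤ n := by
  classical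
  refine le_trans ?_ hn
  let e' : N ≃* T := e.trans (MulEquiv.funUnique (Fin 1) T)
  have hN : NIn N H := h.toNIn
  have h1 := relIndex_dvd_out hN h.cent e'
  rw [← Fintype.card_coe, ← Nat.card_eq_fintype_card]
  refine Nat.card_le_card_of_injective (fun x : el H r => (⟨e' ⟨x.1, mem_of_pow hN hr (fun hd => hO (hd.trans h1))
    (mem_el.1 x.2).1 (by
    have h := pow_orderOf_eq_one x.1
    rwa [(mem_el.1 x.2).2] at h)⟩, by
      rw [MulEquiv.orderOf_eq, ← Subgroup.orderOf_coe]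
      exact (mem_el.1 x.2).2⟩ : {x : T // orderOf x = r})) fun x y hxy => ?_
  have h2 := congrArg Subtype.val hxy
  have h3 := congrArg Subtype.val (e'.injective h2)
  exact Subtype.ext h3

/-- `L_4(3)` -/
theorem psl43' (hF : Fintype.card F = 3) (eT : T ≃* Matrix.ProjectiveSpecialLinearGroup (Fin 4) F)
    (c3 : ∀ x : G, orderOf x = 3 → 3 * 2 ^ 36 ≤ cG x) (c5 : ∀ x : G, orderOf x = 5 → 2 ^ 46 ≤ cG x)
    (c13 : ∀ x : G, orderOf x = 13 → 2 ^ 46 ≤ cG x) : False := by
  have hTf : Finite T := Finite.of_equiv _ eT.symm.toEquiv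
  have hcT : Nat.card T = 6065280 := by rw [Nat.card_congr eT.toEquiv, card_psl43 hF]
  have hcO : Nat.card (Out T) = 4 := by rw [Cfsg.Agent.H548.Crit.card_out_congr eT, out_psl43 hF]
  exact row3 h hM (t := 6065280) (o := 4) (u := 5) (v := 13) (a := 9) (b := 6) (c := 1) (d := 1) (I := 1000)
    (n3 := 3 ^ 12) (nu := 6065280) (nv := 6065280) (k3 := 3 * 2 ^ 36) (ku := 2 ^ 46) (kv := 2 ^ 46)
    hcT hcO (by norm_num) (by norm_num) (by norm_num) (by norm_num) (by norm_num) (by norm_num) (by norm_num)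
    (el_three_le h (m := 8320) (k := 6) (HasRGD.of_equiv eT.symm (rgd_psl43 hF)) (by rw [hcO]; norm_num)
      (by rw [hcT]; norm_num) (by norm_num))
    ((card_el_le_T h (by norm_num) (by rw [hcO]; norm_num)).trans hcT.le)
    ((card_el_le_T h (by norm_num) (by rw [hcO]; norm_num)).trans hcT.le) c3 c5 c13
    (by norm_num) (by norm_num) (by norm_num) (by norm_num) (by norm_num) (by norm_num)

/-- `L_4(3)`, exact number of elements of order 3 -/
theorem psl43'' (hF : Fintype.card F = 3) (eT : T ≃* Matrix.ProjectiveSpecialLinearGroup (Fin 4) F)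
    (hn3 : Nat.card {x : Matrix.ProjectiveSpecialLinearGroup (Fin 4) F // orderOf x = 3} ≤ 82160)
    (c3 : ∀ x : G, orderOf x = 3 → 2 ^ 32 ≤ cG x) (c5 : ∀ x : G, orderOf x = 5 → 2 ^ 46 ≤ cG x)
    (c13 : ∀ x : G, orderOf x = 13 → 2 ^ 46 ≤ cG x) : False := by
  have hTf : Finite T := Finite.of_equiv _ eT.symm.toEquiv
  have hcT : Nat.card T = 6065280 := by rw [Nat.card_congr eT.toEquiv, card_psl43 hF]
  have hcO : Nat.card (Out T) = 4 := by rw [Cfsg.Agent.H548.Crit.card_out_congr eT, out_psl43 hF]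
  exact row3 h hM (t := 6065280) (o := 4) (u := 5) (v := 13) (a := 9) (b := 6) (c := 1) (d := 1) (I := 100)
    (n3 := 82160) (nu := 6065280) (nv := 6065280) (k3 := 2 ^ 32) (ku := 2 ^ 46) (kv := 2 ^ 46)
    hcT hcO (by norm_num) (by norm_num) (by norm_num) (by norm_num) (by norm_num) (by norm_num) (by norm_num)
    (el_le_T h Nat.prime_three (by rw [hcO]; norm_num) (le_of_eq_of_le (Nat.card_congr
      (eT.toEquiv.subtypeEquiv fun x => by rw [MulEquiv.toEquiv_eq_coe, MulEquiv.coe_toEquiv, MulEquiv.orderOf_eq])) hn3))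
    ((card_el_le_T h (by norm_num) (by rw [hcO]; norm_num)).trans hcT.le)
    ((card_el_le_T h (by norm_num) (by rw [hcO]; norm_num)).trans hcT.le) c3 c5 c13
    (by norm_num) (by norm_num) (by norm_num) (by norm_num) (by norm_num) (by norm_num)

omit hM in
theorem psu43_data (hF : Fintype.card F = 9) (eT : T ≃* PSU 4 F 3) :
    Nat.card T = 3265920 ∧ Nat.card (Out T) = 8 ∧ HasRGD 3 T := by
  have hTf : Finite T := Finite.of_equiv _ eT.symm.toEquiv
  have hsT := h.simple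
  have hs : IsSimpleGroup (PSU 4 F 3) := eT.symm.isSimpleGroup
  have hna : ¬ IsMulCommutative (PSU 4 F 3) := by
    intro hc
    obtain ⟨a, b, hab⟩ := h.nab
    apply hab
    apply eT.injective
    rw [map_mul, map_mul]
    exact hc.is_comm.comm _ _
  have hF' : Fintype.card F = 3 ^ 2 := by rw [hF]; norm_num
  have hc := Cfsg.Agent.S0280.result hF' 4 (by norm_num)
  have hcard : Nat.card (PSU 4 F 3) = 3265920 := by
    have h3 : Nat.gcd 4 (3 + 1) = 4 := by decide
    have h4 : 3 ^ (4 * (4 - 1) / 2) * ∏ i ∈ Finset.range 4, (if Even i then 3 ^ (i + 1) + 1 else 3 ^ (i + 1) - 1) =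
      52254720 := by decide
    rw [h3, h4] at hc
    omega
  refine ⟨by rw [Nat.card_congr eT.toEquiv, hcard], ?_, HasRGD.of_equiv eT.symm
    (Cfsg.Agent.Nodes.RGDClass.hasRGD_of_PSU (isPSU (f := 1) (by norm_num) (by norm_num) hF' (by norm_num)))⟩
  rw [Cfsg.Agent.H548.Crit.card_out_congr eT, out_psu (f := 1) (by norm_num) le_rfl (by norm_num) hF' (by norm_num) hs
      hna]
  decide

/-- `U_4(3)` -/
theorem psu43' (hF : Fintype.card F = 9) (eT : T ≃* PSU 4 F 3)
    (c3 : ∀ x : G, orderOf x = 3 → 3 * 2 ^ 36 ≤ cG x) (c5 : ∀ x : G, orderOf x = 5 → 2 ^ 46 ≤ cG x)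
    (c7 : ∀ x : G, orderOf x = 7 → 2 ^ 46 ≤ cG x) : False := by
  have hTf : Finite T := Finite.of_equiv _ eT.symm.toEquiv
  obtain ⟨hcT, hcO, hR⟩ := psu43_data h hF eT
  exact row3 h hM (t := 3265920) (o := 8) (u := 5) (v := 7) (a := 10) (b := 6) (c := 1) (d := 1) (I := 1000)
    (n3 := 3 ^ 12) (nu := 3265920) (nv := 3265920) (k3 := 3 * 2 ^ 36) (ku := 2 ^ 46) (kv := 2 ^ 46)
    hcT hcO (by norm_num) (by norm_num) (by norm_num) (by norm_num) (by norm_num) (by norm_num) (by norm_num)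
    (el_three_le h (m := 4480) (k := 6) hR (by rw [hcO]; norm_num) (by rw [hcT]; norm_num) (by norm_num))
    ((card_el_le_T h (by norm_num) (by rw [hcO]; norm_num)).trans hcT.le)
    ((card_el_le_T h (by norm_num) (by rw [hcO]; norm_num)).trans hcT.le) c3 c5 c7
    (by norm_num) (by norm_num) (by norm_num) (by norm_num) (by norm_num) (by norm_num)

/-- `U_4(3)`, exact number of elements of order 3 -/
theorem psu43'' (hF : Fintype.card F = 9) (eT : T ≃* PSU 4 F 3)
    (hn3 : Nat.card {x : PSU 4 F 3 // orderOf x = 3} ≤ 47600)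
    (c3 : ∀ x : G, orderOf x = 3 → 2 ^ 32 ≤ cG x) (c5 : ∀ x : G, orderOf x = 5 → 2 ^ 46 ≤ cG x)
    (c7 : ∀ x : G, orderOf x = 7 → 2 ^ 46 ≤ cG x) : False := by
  have hTf : Finite T := Finite.of_equiv _ eT.symm.toEquiv
  obtain ⟨hcT, hcO, hR⟩ := psu43_data h hF eT
  exact row3 h hM (t := 3265920) (o := 8) (u := 5) (v := 7) (a := 10) (b := 6) (c := 1) (d := 1) (I := 100)
    (n3 := 47600) (nu := 3265920) (nv := 3265920) (k3 := 2 ^ 32) (ku := 2 ^ 46) (kv := 2 ^ 46)
    hcT hcO (by norm_num) (by norm_num) (by norm_num) (by norm_num) (by norm_num) (by norm_num) (by norm_num)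
    (el_le_T h Nat.prime_three (by rw [hcO]; norm_num) (le_of_eq_of_le (Nat.card_congr
      (eT.toEquiv.subtypeEquiv fun x => by rw [MulEquiv.toEquiv_eq_coe, MulEquiv.coe_toEquiv, MulEquiv.orderOf_eq])) hn3))
    ((card_el_le_T h (by norm_num) (by rw [hcO]; norm_num)).trans hcT.le)
    ((card_el_le_T h (by norm_num) (by rw [hcO]; norm_num)).trans hcT.le) c3 c5 c7
    (by norm_num) (by norm_num) (by norm_num) (by norm_num) (by norm_num) (by norm_num)

omit h hM in
theorem g23_data (hF : Fintype.card F = 3) (eT : T ≃* ↥(Lie.chevG2.group F)) :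
    Nat.card T = 4245696 ∧ Nat.card (Out T) = 2 ∧ HasRGD 3 T := by
  have hch : CharP F 3 := charP_three (n := 1) (by rw [hF, pow_one])
  have : Fact (Nat.Prime 3) := ⟨Nat.prime_three⟩
  have hrgd : HasRGD 3 T := Cfsg.Agent.Nodes.RGDChev.hasRGD_of_exceptional
    ⟨F, inferInstance, inferInstance, hch, Or.inl ⟨by rw [hF], ⟨eT⟩⟩⟩
  have hcard : Nat.card ↥(Lie.chevG2.group F) = 4245696 := by
    rw [Cfsg.Agent.S1059.result hF]; norm_num
  have hout : Nat.card (Out ↥(Lie.chevG2.group F)) = 2 := by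
    rw [Cfsg.Agent.S2121.result 3 1 (by rw [hF, pow_one]) (by norm_num)]
    simp
  exact ⟨by rw [Nat.card_congr eT.toEquiv, hcard], by rw [Cfsg.Agent.H548.Crit.card_out_congr eT, hout], hrgd⟩

/-- `G_2(3)` -/
theorem g23' (hF : Fintype.card F = 3) (eT : T ≃* ↥(Lie.chevG2.group F))
    (c3 : ∀ x : G, orderOf x = 3 → 3 * 2 ^ 36 ≤ cG x) (c7 : ∀ x : G, orderOf x = 7 → 2 ^ 46 ≤ cG x)
    (c13 : ∀ x : G, orderOf x = 13 → 2 ^ 46 ≤ cG x) : False := by
  have hTf : Finite T := Finite.of_equiv _ eT.symm.toEquiv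
  obtain ⟨hcT, hcO, hR⟩ := g23_data hF eT
  exact row3 h hM (t := 4245696) (o := 2) (u := 7) (v := 13) (a := 7) (b := 6) (c := 1) (d := 1) (I := 1000)
    (n3 := 3 ^ 12) (nu := 4245696) (nv := 4245696) (k3 := 3 * 2 ^ 36) (ku := 2 ^ 46) (kv := 2 ^ 46)
    hcT hcO (by norm_num) (by norm_num) (by norm_num) (by norm_num) (by norm_num) (by norm_num) (by norm_num)
    (el_three_le h (m := 5824) (k := 6) hR (by rw [hcO]; norm_num) (by rw [hcT]; norm_num) (by norm_num))
    ((card_el_le_T h (by norm_num) (by rw [hcO]; norm_num)).trans hcT.le)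
    ((card_el_le_T h (by norm_num) (by rw [hcO]; norm_num)).trans hcT.le) c3 c7 c13
    (by norm_num) (by norm_num) (by norm_num) (by norm_num) (by norm_num) (by norm_num)

/-- `G_2(3)`, exact number of elements of order 3 -/
theorem g23'' (hF : Fintype.card F = 3) (eT : T ≃* ↥(Lie.chevG2.group F))
    (hn3 : Nat.card {x : ↥(Lie.chevG2.group F) // orderOf x = 3} ≤ 59696)
    (c3 : ∀ x : G, orderOf x = 3 → 2 ^ 32 ≤ cG x) (c7 : ∀ x : G, orderOf x = 7 → 2 ^ 46 ≤ cG x)
    (c13 : ∀ x : G, orderOf x = 13 → 2 ^ 46 ≤ cG x) : False := by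
  have hTf : Finite T := Finite.of_equiv _ eT.symm.toEquiv
  obtain ⟨hcT, hcO, hR⟩ := g23_data hF eT
  exact row3 h hM (t := 4245696) (o := 2) (u := 7) (v := 13) (a := 7) (b := 6) (c := 1) (d := 1) (I := 100)
    (n3 := 59696) (nu := 4245696) (nv := 4245696) (k3 := 2 ^ 32) (ku := 2 ^ 46) (kv := 2 ^ 46)
    hcT hcO (by norm_num) (by norm_num) (by norm_num) (by norm_num) (by norm_num) (by norm_num) (by norm_num)
    (el_le_T h Nat.prime_three (by rw [hcO]; norm_num) (le_of_eq_of_le (Nat.card_congr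
      (eT.toEquiv.subtypeEquiv fun x => by rw [MulEquiv.toEquiv_eq_coe, MulEquiv.coe_toEquiv, MulEquiv.orderOf_eq])) hn3))
    ((card_el_le_T h (by norm_num) (by rw [hcO]; norm_num)).trans hcT.le)
    ((card_el_le_T h (by norm_num) (by rw [hcO]; norm_num)).trans hcT.le) c3 c7 c13
    (by norm_num) (by norm_num) (by norm_num) (by norm_num) (by norm_num) (by norm_num)

end rows

end Cfsg.Agent.H686.EX
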